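import Mathlib
import Cfsg.Agent.Lib.Helper67.LSF.Defs

/-!
# LSF (S5286): package [INV] — inversion of paths
-/

set_option autoImplicit false

namespace Cfsg.Agent.Lib.Helper83.LSF

open Cfsg Cfsg.Agent.Lib.Helper67.LSF

universe u

theorem inv_aux83 {Ω : Type u} [Group Ω] (S : Subgroup Ω) (F : FusionSystem S)
    (M : List (X F × Bool)) (q : Equiv.Perm S) (h : Path F M q) :
    (M = [] → ∃ s : S, q = lam S s) ∧
    (∀ (x : X F) (L : List (X F × Bool)), M = (x, true) :: L →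
      ∃ (i : Idx F) (s : S) (q₀ : Equiv.Perm S), Path F L q₀ ∧
        x = ⟨i, ((q₀⁻¹ : Equiv.Perm S) : Equiv.Perm S ⧸ Lam i)⟩ ∧ q = lam S s * i.σ * q₀) ∧
    (∀ (x : X F) (L : List (X F × Bool)), M = (x, false) :: L →
      ∃ (i : Idx F) (s : S) (q₀ : Equiv.Perm S), Path F L q₀ ∧
        x = ⟨i, ((q₀⁻¹ * i.σ : Equiv.Perm S) : Equiv.Perm S ⧸ Lam i)⟩ ∧
          q = lam S s * i.σ⁻¹ * q₀) := by
  induction h with
  | nil s =>
    refine ⟨fun _ => ⟨s, rfl⟩, fun x L hM => ?_, fun x L hM => ?_⟩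
    · exact absurd hM (by simp)
    · exact absurd hM (by simp)
  | a s hp ih =>
    obtain ⟨ih1, ih2, ih3⟩ := ih
    refine ⟨fun hM => ?_, fun x L hM => ?_, fun x L hM => ?_⟩
    · obtain ⟨s', hs'⟩ := ih1 hM
      exact ⟨s * s', by rw [hs', map_mul]⟩
    · obtain ⟨i, s', q₀, hq₀, hx, hq⟩ := ih2 x L hM
      exact ⟨i, s * s', q₀, hq₀, hx, by rw [hq, map_mul]; simp only [mul_assoc]⟩
    · obtain ⟨i, s', q₀, hq₀, hx, hq⟩ := ih3 x L hM
      exact ⟨i, s * s', q₀, hq₀, hx, by rw [hq, map_mul]; simp only [mul_assoc]⟩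
  | t i hp ih =>
    refine ⟨fun hM => absurd hM (by simp), fun x L hM => ?_, fun x L hM => ?_⟩
    · rw [List.cons.injEq, Prod.mk.injEq] at hM
      obtain ⟨⟨hx, -⟩, hL⟩ := hM
      subst hL
      exact ⟨i, 1, _, hp, hx.symm, by rw [map_one, one_mul]⟩
    · rw [List.cons.injEq, Prod.mk.injEq] at hM
      exact absurd hM.1.2 (by simp)
  | t' i hp ih =>
    refine ⟨fun hM => absurd hM (by simp), fun x L hM => ?_, fun x L hM => ?_⟩
    · rw [List.cons.injEq, Prod.mk.injEq] at hM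
      exact absurd hM.1.2 (by simp)
    · rw [List.cons.injEq, Prod.mk.injEq] at hM
      obtain ⟨⟨hx, -⟩, hL⟩ := hM
      subst hL
      exact ⟨i, 1, _, hp, hx.symm, by rw [map_one, one_mul]⟩

/-- [INV] inversion of paths. -/
theorem pkgInv : PkgInv.{u} := by
  intro Ω _ S F
  refine ⟨fun q h => (inv_aux83 S F [] q h).1 rfl,
    fun x L q h => (inv_aux83 S F _ q h).2.1 x L rfl,
    fun x L q h => (inv_aux83 S F _ q h).2.2 x L rfl⟩

end Cfsg.Agent.Lib.Helper83.LSF
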